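import Cfsg.Agent.H892.FixDim

/-!
# S4816 (RIM), EK tools: from `F_p H`-modules to representations over an algebraically closed field (helper887)

**`exists_lin`** : for a finite group `H` acting on an elementary abelian `p`-group `V` there is a representation `ρ` of `H`
over an algebraically closed field of characteristic `p`, of dimension `d`, `|V| = p ^ d`, with the same kernel and the same
dimensions of the fixed spaces of the elements.
-/

set_option autoImplicit false
set_option linter.style.haveILetI false
set_option linter.unusedSectionVars false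

namespace Cfsg.Agent.H887.RIM

open Module Cfsg.Agent.H892.FixDim
open scoped TensorProduct

universe u v

section aux

variable {p : ℕ} [Fact p.Prime] {H : Type u} {V : Type v} [Group H] [AddCommGroup V] [Finite V] [Module (ZMod p) V]

/-- a linear action over `F_p` from a distributive action -/
def toLin (p : ℕ) (H : Type u) (V : Type v) [Group H] [AddCommGroup V] [Module (ZMod p) V] [DistribMulAction H V] :
    H →* Module.End (ZMod p) V where
  toFun h := AddMonoidHom.toZModLinearMap p (DistribSMul.toAddMonoidHom V h)
  map_one' := by
    apply LinearMap.ext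
    intro v
    exact one_smul H v
  map_mul' a b := by
    apply LinearMap.ext
    intro v
    exact mul_smul a b v

theorem toLin_apply [DistribMulAction H V] (h : H) (v : V) : toLin p H V h v = h • v := rfl

/-- base change of a representation -/
noncomputable def bc {k : Type*} [Field k] {V : Type v} [AddCommGroup V] [Module k V] (K : Type*) [Field K] [Algebra k K]
    (σ : H →* Module.End k V) : H →* Module.End K (K ⊗[k] V) where
  toFun h := (σ h).baseChange K
  map_one' := by
    rw [map_one]
    ext
    simp
  map_mul' a b := by
    rw [map_mul]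
    ext
    simp

theorem bc_apply {k : Type*} [Field k] {V : Type v} [AddCommGroup V] [Module k V] (K : Type*) [Field K] [Algebra k K]
    (σ : H →* Module.End k V) (h : H) : bc K σ h = (σ h).baseChange K := rfl

theorem bc_ker {k : Type*} [Field k] {V : Type v} [AddCommGroup V] [Module k V] (K : Type*) [Field K] [Algebra k K]
    (σ : H →* Module.End k V) (h : H) :
    finrank K (LinearMap.ker (bc K σ h - 1)) = finrank k (LinearMap.ker (σ h - 1)) :=
  fx_baseChange K (σ h)

theorem bc_finrank (k : Type*) [Field k] (V : Type v) [AddCommGroup V] [Module k V] (K : Type*) [Field K] [Algebra k K] :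
    finrank K (K ⊗[k] V) = finrank k V := Module.finrank_baseChange

theorem card_sub (U : Submodule (ZMod p) V) : Nat.card U = p ^ finrank (ZMod p) U := by
  rw [Module.natCard_eq_pow_finrank (K := ZMod p), Nat.card_zmod]

end aux

/-- the statement over a splitting field -/
theorem exists_lin_aux {p : ℕ} [Fact p.Prime] {H : Type u} {V : Type v} [Group H] [AddCommGroup V] [Finite V]
    [Module (ZMod p) V] [DistribMulAction H V] (K : Type) [Field K] [Algebra (ZMod p) K] :
    ∃ (W : Type v) (_ : AddCommGroup W) (_ : Module K W) (_ : FiniteDimensional K W) (ρ : H →* Module.End K W),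
      Nat.card V = p ^ finrank K W ∧ (∀ h : H, ρ h = 1 ↔ ∀ v : V, h • v = v) ∧
      ∀ h : H, Nat.card {v : V // h • v = v} = p ^ finrank K (LinearMap.ker (ρ h - 1)) := by
  haveI : Module.Finite (ZMod p) V := Module.Finite.of_finite
  have hVc : Nat.card V = p ^ finrank (ZMod p) V := by
    rw [Module.natCard_eq_pow_finrank (K := ZMod p), Nat.card_zmod]
  refine ⟨K ⊗[ZMod p] V, _, _, inferInstance, bc K (toLin p H V), ?_, ?_, ?_⟩
  · rw [bc_finrank, hVc]
  · intro h
    constructor
    · intro h1 v
      have h2 : finrank (ZMod p) (LinearMap.ker (toLin p H V h - 1)) = finrank (ZMod p) V := by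
        have h5 : LinearMap.ker (bc K (toLin p H V) h - 1) = ⊤ := by
          rw [eq_top_iff]
          intro w _
          rw [mem_ker_sub_one, h1]
          rfl
        rw [← bc_ker K, h5, finrank_top, bc_finrank]
      have h3 : LinearMap.ker (toLin p H V h - 1) = ⊤ := Submodule.eq_top_of_finrank_eq h2
      have h4 : v ∈ LinearMap.ker (toLin p H V h - 1) := by rw [h3]; exact Submodule.mem_top
      rw [mem_ker_sub_one] at h4
      exact h4
    · intro h1
      have h2 : toLin p H V h = 1 := LinearMap.ext fun v => h1 v
      rw [bc_apply, h2]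
      ext
      simp
  · intro h
    rw [bc_ker, ← card_sub]
    refine Nat.card_congr (Equiv.subtypeEquivRight fun v => ?_)
    rw [mem_ker_sub_one]
    rfl

theorem exists_ac (k : Type) [Field k] : ∃ (K : Type) (_ : Field K) (_ : Algebra k K), IsAlgClosed K :=
  ⟨AlgebraicClosure k, inferInstance, inferInstance, inferInstance⟩

theorem exists_lin {p : ℕ} (hp : p.Prime) {H : Type u} {V : Type v} [Group H] [AddCommGroup V] [Finite V]
    [DistribMulAction H V] (hV : ∀ v : V, p • v = 0) :
    ∃ (K : Type) (_ : Field K) (_ : CharP K p) (_ : IsAlgClosed K) (W : Type v) (_ : AddCommGroup W) (_ : Module K W)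
      (_ : FiniteDimensional K W) (ρ : H →* Module.End K W), Nat.card V = p ^ finrank K W ∧
      (∀ h : H, ρ h = 1 ↔ ∀ v : V, h • v = v) ∧
      ∀ h : H, Nat.card {v : V // h • v = v} = p ^ finrank K (LinearMap.ker (ρ h - 1)) := by
  haveI : Fact p.Prime := ⟨hp⟩
  letI : Module (ZMod p) V := AddCommGroup.zmodModule hV
  obtain ⟨K, _, _, hK⟩ := exists_ac (ZMod p)
  exact ⟨K, inferInstance, charP_of_injective_algebraMap (algebraMap (ZMod p) K).injective p, hK, exists_lin_aux K⟩

end Cfsg.Agent.H887.RIM
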