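import Cfsg.Agent.H887.RIM.AT

/-!
# S4816 (RIM), EK tool E4: the user forms (helper887)

`V` elementary abelian `p`-group with an action of the finite group `L`; `x ∈ L` of prime order `s` (any `s`) normalising the
abelian `p'`-subgroup `A`; `e` with `|V| ≤ p ^ e |C_V(x)|` (the codimension of `C_V(x)`).
* `at1_codim` : `N(A)` transitive on `A ∖ 1`, `A` not trivial on `V`: `(s - 1) (|A| - |C_A(x)|) ≤ s e`; `at1_dim` : `|A| - 1 ≤ dim V`.
* `at2_codim`, `at2_dim` : a finite set `S` of elements of `N(A)` separating the weights.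
* `at3_codim`, `at3_dim` : `A = ⟨c⟩` of prime order, `c` conjugate to `c ^ k`, `k ∈ T`: `(s - 1) |T| ≤ s e`.
-/

set_option autoImplicit false
set_option linter.style.haveILetI false
set_option linter.unusedSectionVars false

namespace Cfsg.Agent.H887.RIM

open Module Cfsg.Agent.H912.Bd

section wts

variable {K : Type*} [Field K] {W : Type*} [AddCommGroup W] [Module K W] {L : Type*} [Group L]
  (ρ : L →* Module.End K W) {A : Subgroup L} [FiniteDimensional K W] [IsAlgClosed K] [Finite A]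
  (hA : ∀ a ∈ A, ∀ b ∈ A, a * b = b * a) (hN : (Nat.card A : K) ≠ 0)
include hA hN

/-- **all nontrivial characters occur** if `N(A)` is transitive on `A ∖ 1` -/
theorem wc_ne_bot_of_trans (htr : ∀ a ∈ A, a ≠ 1 → ∀ b ∈ A, b ≠ 1 →
      ∃ g : L, (∀ c ∈ A, g * c * g⁻¹ ∈ A) ∧ g * a * g⁻¹ = b)
    (hnt : ∃ a : A, ρ a ≠ 1) (ψ : A →* Kˣ) (hψ : ψ ≠ 1) : wc ρ A ψ ≠ ⊥ := by
  classical
  haveI : Fintype A := Fintype.ofFinite _
  haveI : Fintype (A →* Kˣ) := Fintype.ofFinite _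
  let Ω : Finset (A →* Kˣ) := Finset.univ.filter fun χ => χ ≠ 1 ∧ wc ρ A χ ≠ ⊥
  have hΩ : ∀ χ, χ ∈ Ω ↔ χ ≠ 1 ∧ wc ρ A χ ≠ ⊥ := fun χ => by simp [Ω]
  let f : A → K := fun a => ∑ χ ∈ Ω, (χ a : K)
  have hf : ∀ (g : L) (hg : ∀ a ∈ A, g * a * g⁻¹ ∈ A) (a : A), f (cjA hg a) = f a := by
    intro g hg a
    have hinj0 : Function.Injective (cjA hg) := by
      intro b c h
      have h1 := congrArg Subtype.val h
      rw [cjA_coe, cjA_coe] at h1
      exact Subtype.ext (mul_left_cancel (mul_right_cancel h1))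
    have hsurj : Function.Surjective (cjA hg) := Finite.surjective_of_injective hinj0
    let i : (A →* Kˣ) → (A →* Kˣ) := fun χ => χ.comp (cjA hg)
    have hinj : Function.Injective i := by
      intro χ χ' h
      ext b
      obtain ⟨c, rfl⟩ := hsurj b
      exact congrArg Units.val (DFunLike.congr_fun h c)
    have himg : Ω.image i = Ω := by
      refine Finset.eq_of_subset_of_card_le ?_ (Finset.card_image_of_injective _ hinj).ge
      intro χ hχ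
      obtain ⟨χ', hχ', rfl⟩ := Finset.mem_image.1 hχ
      rw [hΩ] at hχ' ⊢
      refine ⟨fun h => hχ'.1 (hinj (h.trans ?_)), wc_twist ρ hg hχ'.2⟩
      ext b
      rfl
    change ∑ χ ∈ Ω, (χ (cjA hg a) : K) = ∑ χ ∈ Ω, (χ a : K)
    conv_rhs => rw [← himg]
    rw [Finset.sum_image fun a _ b _ h => hinj h]
    rfl
  obtain ⟨a0, ha0⟩ := hnt
  have ha01 : (a0 : L) ≠ 1 := fun h => ha0 (by rw [h, map_one])
  have hconst : ∀ b : A, b ≠ 1 → f b = f a0 := by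
    intro b hb
    obtain ⟨g, hg, hgb⟩ := htr a0 a0.2 ha01 b b.2 (fun h => hb (Subtype.ext h))
    rw [← hf g hg a0]
    congr 1
    exact Subtype.ext hgb.symm
  have horth : ∀ χ φ : A →* Kˣ, ∑ a : A, ((χ a : K) * ((φ⁻¹ : A →* Kˣ) a : K)) = if χ = φ then (Nat.card A : K) else 0 := by
    intro χ φ
    have h1 := sum_hom_units ((Units.coeHom K).comp (χ * φ⁻¹))
    have h2 : ((Units.coeHom K).comp (χ * φ⁻¹) = 1) ↔ χ = φ := by
      rw [← mul_inv_eq_one (a := χ)]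
      constructor
      · intro h
        ext a
        exact DFunLike.congr_fun h a
      · intro h
        rw [h]
        ext a
        rfl
    rw [Nat.card_eq_fintype_card]
    simp only [h2] at h1
    rw [Nat.cast_ite, Nat.cast_zero] at h1
    rw [← h1]
    rfl
  have htot : ∀ φ : A →* Kˣ, ∑ a : A, f a * ((φ⁻¹ : A →* Kˣ) a : K) = if φ ∈ Ω then (Nat.card A : K) else 0 := by
    intro φ
    simp only [f, Finset.sum_mul]
    rw [Finset.sum_comm]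
    simp only [horth]
    rw [Finset.sum_ite_eq']
  have htot2 : ∀ φ : A →* Kˣ, φ ≠ 1 → ∑ a : A, f a * ((φ⁻¹ : A →* Kˣ) a : K) = f 1 - f a0 := by
    intro φ hφ
    have h1 : ∑ a : A, ((φ⁻¹ : A →* Kˣ) a : K) = 0 := by
      have h2 := horth 1 φ
      rw [if_neg (Ne.symm hφ)] at h2
      simpa using h2
    have h3 : ∑ a : A, f a0 * ((φ⁻¹ : A →* Kˣ) a : K) = 0 := by rw [← Finset.mul_sum, h1, mul_zero]
    have h4 : ∑ a : A, (f a - f a0) * ((φ⁻¹ : A →* Kˣ) a : K) = f 1 - f a0 := by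
      rw [Finset.sum_eq_single 1]
      · rw [map_one, Units.val_one, mul_one]
      · intro b _ hb
        rw [hconst b hb, sub_self, zero_mul]
      · intro h
        exact absurd (Finset.mem_univ _) h
    calc ∑ a : A, f a * ((φ⁻¹ : A →* Kˣ) a : K)
        = ∑ a : A, ((f a - f a0) * ((φ⁻¹ : A →* Kˣ) a : K) + f a0 * ((φ⁻¹ : A →* Kˣ) a : K)) :=
          Finset.sum_congr rfl fun a _ => by ring
      _ = f 1 - f a0 := by rw [Finset.sum_add_distrib, h4, h3, add_zero]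
  obtain ⟨χ0, hχ0, hχ1⟩ := exists_wc ρ hA hN ha0
  have hχ0Ω : χ0 ∈ Ω := (hΩ _).2 ⟨fun h => hχ1 (by rw [h]; rfl), hχ0⟩
  have h1 := (htot χ0).symm.trans (htot2 χ0 ((hΩ _).1 hχ0Ω).1)
  rw [if_pos hχ0Ω] at h1
  have h2 := (htot ψ).symm.trans (htot2 ψ hψ)
  rw [← h1] at h2
  by_contra hcon
  rw [if_neg fun h => ((hΩ _).1 h).2 hcon] at h2
  exact hN h2.symm

/-- the number of characters moved by `x` -/
theorem card_moved {x : L} (hx : ∀ a ∈ A, x * a * x⁻¹ ∈ A) :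
    ∃ T : Finset (A →* Kˣ), (∀ χ, χ ∈ T ↔ χ.comp (cjA hx) ≠ χ) ∧
      T.card = Nat.card A - Nat.card {a : L // a ∈ A ∧ x * a = a * x} := by
  classical
  haveI : Fintype (A →* Kˣ) := Fintype.ofFinite _
  refine ⟨Finset.univ.filter fun χ => χ.comp (cjA hx) ≠ χ, fun χ => by simp, ?_⟩
  have hA' : ∀ a b : A, a * b = b * a := fun a b => Subtype.ext (hA a a.2 b b.2)
  have h1 := card_char (K := K) hA' hN
  have h2 := card_char_fix (K := K) hA' hN (cjA hx)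
  have h3 : Nat.card {b : A // cjA hx b = b} = Nat.card {a : L // a ∈ A ∧ x * a = a * x} := by
    refine Nat.card_congr ⟨fun b => ⟨b.1, b.1.2, ?_⟩, fun a => ⟨⟨a.1, a.2.1⟩, ?_⟩, fun _ => rfl, fun _ => rfl⟩
    · have := congrArg Subtype.val b.2
      rw [cjA_coe] at this
      exact mul_inv_eq_iff_eq_mul.1 this
    · apply Subtype.ext
      rw [cjA_coe]
      exact mul_inv_eq_iff_eq_mul.2 a.2.2
  rw [h3, Nat.card_eq_fintype_card, Fintype.card_subtype] at h2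
  rw [Nat.card_eq_fintype_card, ← Finset.card_univ] at h1
  have h4 := Finset.card_filter_add_card_filter_not (s := (Finset.univ : Finset (A →* Kˣ))) (fun χ => χ.comp (cjA hx) = χ)
  rw [h1] at h4
  rw [← h4]
  refine (Nat.sub_eq_of_eq_add' ?_).symm
  rw [← h2]

/-- **E4, transitive case, linear version.** -/
theorem at1 (htr : ∀ a ∈ A, a ≠ 1 → ∀ b ∈ A, b ≠ 1 → ∃ g : L, (∀ c ∈ A, g * c * g⁻¹ ∈ A) ∧ g * a * g⁻¹ = b)
    (hnt : ∃ a : A, ρ a ≠ 1) {x : L} (hx : ∀ a ∈ A, x * a * x⁻¹ ∈ A) {s : ℕ} (hs : s.Prime) (hxs : x ^ s = 1) :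
    s * finrank K (LinearMap.ker (ρ x - 1)) + (s - 1) * (Nat.card A - Nat.card {a : L // a ∈ A ∧ x * a = a * x}) ≤
      s * finrank K W := by
  obtain ⟨T, hT, hc⟩ := card_moved (K := K) hA hN hx
  rw [← hc]
  refine at0 ρ hA hN hx hs hxs T fun χ hχ => ⟨wc_ne_bot_of_trans ρ hA hN htr hnt χ ?_, (hT χ).1 hχ⟩
  rintro rfl
  apply (hT _).1 hχ
  ext a
  rfl

/-- the dimension in the transitive case -/
theorem at1' (htr : ∀ a ∈ A, a ≠ 1 → ∀ b ∈ A, b ≠ 1 → ∃ g : L, (∀ c ∈ A, g * c * g⁻¹ ∈ A) ∧ g * a * g⁻¹ = b)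
    (hnt : ∃ a : A, ρ a ≠ 1) : Nat.card A - 1 ≤ finrank K W := by
  classical
  haveI : Fintype (A →* Kˣ) := Fintype.ofFinite _
  have hA' : ∀ a b : A, a * b = b * a := fun a b => Subtype.ext (hA a a.2 b b.2)
  have h1 := card_char (K := K) hA' hN
  have h2 := finrank_le_of_wc ρ hA hN (Finset.univ.erase (1 : A →* Kˣ)) fun χ hχ =>
    wc_ne_bot_of_trans ρ hA hN htr hnt χ (Finset.mem_erase.1 hχ).1
  rwa [Finset.card_erase_of_mem (Finset.mem_univ _), Finset.card_univ, ← Nat.card_eq_fintype_card, h1] at h2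

/-- **E4, separated twists, linear version.** -/
theorem at2 {c : L} (hcA : c ∈ A) (hc : ρ c ≠ 1) (S : Finset L) (hS : ∀ g ∈ S, ∀ a ∈ A, g * a * g⁻¹ ∈ A)
    (hSc : ∀ g ∈ S, ∀ h ∈ S, g ≠ h → ∃ a ∈ A, (g * a * g⁻¹) * (h * a * h⁻¹)⁻¹ = c) {x : L}
    (hx : ∀ a ∈ A, x * a * x⁻¹ ∈ A) (hSx : ∀ g ∈ S, ∃ a ∈ A, (g * (x * a * x⁻¹) * g⁻¹) * (g * a * g⁻¹)⁻¹ = c)
    {s : ℕ} (hs : s.Prime) (hxs : x ^ s = 1) :
    s * finrank K (LinearMap.ker (ρ x - 1)) + (s - 1) * S.card ≤ s * finrank K W := by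
  classical
  obtain ⟨χ, hχ, hχc⟩ := exists_wc ρ hA hN (c := ⟨c, hcA⟩) hc
  let tw : S → (A →* Kˣ) := fun g => χ.comp (cjA (hS g g.2))
  have hinj : Function.Injective tw := by
    intro g h hgh
    by_contra hne
    obtain ⟨a, ha, hac⟩ := hSc g g.2 h h.2 (fun e => hne (Subtype.ext e))
    apply hχc
    have h1 : χ (cjA (hS g g.2) ⟨a, ha⟩) = χ (cjA (hS h h.2) ⟨a, ha⟩) := DFunLike.congr_fun hgh ⟨a, ha⟩
    have h2 : (⟨c, hcA⟩ : A) = cjA (hS g g.2) ⟨a, ha⟩ * (cjA (hS h h.2) ⟨a, ha⟩)⁻¹ := Subtype.ext hac.symm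
    rw [h2, map_mul, map_inv, h1, mul_inv_cancel]
  have h1 := at0 ρ hA hN hx hs hxs (Finset.univ.image tw) (by
    intro ψ hψ
    obtain ⟨g, -, rfl⟩ := Finset.mem_image.1 hψ
    refine ⟨wc_twist ρ _ hχ, fun h => ?_⟩
    obtain ⟨a, ha, hac⟩ := hSx g g.2
    apply hχc
    have h1 : χ (cjA (hS g g.2) (cjA hx ⟨a, ha⟩)) = χ (cjA (hS g g.2) ⟨a, ha⟩) := DFunLike.congr_fun h ⟨a, ha⟩
    have h2 : (⟨c, hcA⟩ : A) = cjA (hS g g.2) (cjA hx ⟨a, ha⟩) * (cjA (hS g g.2) ⟨a, ha⟩)⁻¹ := Subtype.ext hac.symm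
    rw [h2, map_mul, map_inv, h1, mul_inv_cancel])
  rwa [Finset.card_image_of_injective _ hinj, Finset.card_univ, Fintype.card_coe] at h1

end wts

/-- from the dimensions to the cardinals -/
theorem codim_aux {p n c e s M : ℕ} (hp : 1 < p) (he : p ^ n ≤ p ^ e * p ^ c) (h : s * c + M ≤ s * n) : M ≤ s * e := by
  rw [← pow_add, Nat.pow_le_pow_iff_right hp] at he
  have h1 : s * n ≤ s * e + s * c := by rw [← mul_add]; exact Nat.mul_le_mul_left _ he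
  omega

section users

variable {p : ℕ} (hp : p.Prime) {L V : Type*} [Group L] [Finite L] [AddCommGroup V] [Finite V]
  [DistribMulAction L V] (hV : ∀ v : V, p • v = 0) (A : Subgroup L) (hA : ∀ a ∈ A, ∀ b ∈ A, a * b = b * a)
  (hAp : ¬ p ∣ Nat.card A)
include hp hV hA hAp

/-- **E4, transitive case: the codimension of `C_V(x)`.** -/
theorem at1_codim (htr : ∀ a ∈ A, a ≠ 1 → ∀ b ∈ A, b ≠ 1 → ∃ g : L, (∀ c ∈ A, g * c * g⁻¹ ∈ A) ∧ g * a * g⁻¹ = b)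
    {a : L} (ha : a ∈ A) {v : V} (hav : a • v ≠ v) {x : L} (hx : ∀ a ∈ A, x * a * x⁻¹ ∈ A) {s : ℕ} (hs : s.Prime)
    (hxs : x ^ s = 1) {e : ℕ} (he : Nat.card V ≤ p ^ e * Nat.card {v : V // x • v = v}) :
    (s - 1) * (Nat.card A - Nat.card {a : L // a ∈ A ∧ x * a = a * x}) ≤ s * e := by
  obtain ⟨K, _, _, _, W, _, _, _, ρ, hcard, hker, hfix⟩ := exists_lin (H := L) hp hV
  have hN : (Nat.card A : K) ≠ 0 := by rwa [Ne, CharP.cast_eq_zero_iff K p]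
  rw [hcard, hfix x] at he
  exact codim_aux hp.one_lt he (at1 ρ hA hN htr ⟨⟨a, ha⟩, fun h => hav ((hker a).1 h v)⟩ hx hs hxs)

/-- **E4, transitive case: the dimension.** -/
theorem at1_dim (htr : ∀ a ∈ A, a ≠ 1 → ∀ b ∈ A, b ≠ 1 → ∃ g : L, (∀ c ∈ A, g * c * g⁻¹ ∈ A) ∧ g * a * g⁻¹ = b)
    {a : L} (ha : a ∈ A) {v : V} (hav : a • v ≠ v) : p ^ (Nat.card A - 1) ≤ Nat.card V := by
  obtain ⟨K, _, _, _, W, _, _, _, ρ, hcard, hker, hfix⟩ := exists_lin (H := L) hp hV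
  have hN : (Nat.card A : K) ≠ 0 := by rwa [Ne, CharP.cast_eq_zero_iff K p]
  rw [hcard]
  exact Nat.pow_le_pow_right hp.pos (at1' ρ hA hN htr ⟨⟨a, ha⟩, fun h => hav ((hker a).1 h v)⟩)

/-- **E4, separated twists: the codimension of `C_V(x)`.** -/
theorem at2_codim {c : L} (hcA : c ∈ A) {v : V} (hcv : c • v ≠ v) (S : Finset L)
    (hS : ∀ g ∈ S, ∀ a ∈ A, g * a * g⁻¹ ∈ A)
    (hSc : ∀ g ∈ S, ∀ h ∈ S, g ≠ h → ∃ a ∈ A, (g * a * g⁻¹) * (h * a * h⁻¹)⁻¹ = c) {x : L}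
    (hx : ∀ a ∈ A, x * a * x⁻¹ ∈ A) (hSx : ∀ g ∈ S, ∃ a ∈ A, (g * (x * a * x⁻¹) * g⁻¹) * (g * a * g⁻¹)⁻¹ = c)
    {s : ℕ} (hs : s.Prime) (hxs : x ^ s = 1) {e : ℕ} (he : Nat.card V ≤ p ^ e * Nat.card {v : V // x • v = v}) :
    (s - 1) * S.card ≤ s * e := by
  obtain ⟨K, _, _, _, W, _, _, _, ρ, hcard, hker, hfix⟩ := exists_lin (H := L) hp hV
  have hN : (Nat.card A : K) ≠ 0 := by rwa [Ne, CharP.cast_eq_zero_iff K p]
  rw [hcard, hfix x] at he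
  exact codim_aux hp.one_lt he (at2 ρ hA hN hcA (fun h => hcv ((hker c).1 h v)) S hS hSc hx hSx hs hxs)

/-- **Separated twists: the dimension.** -/
theorem at2_dim {c : L} (hcA : c ∈ A) {v : V} (hcv : c • v ≠ v) (S : Finset L)
    (hS : ∀ g ∈ S, ∀ a ∈ A, g * a * g⁻¹ ∈ A)
    (hSc : ∀ g ∈ S, ∀ h ∈ S, g ≠ h → ∃ a ∈ A, (g * a * g⁻¹) * (h * a * h⁻¹)⁻¹ = c) :
    p ^ S.card ≤ Nat.card V := by
  obtain ⟨K, _, _, _, W, _, _, _, ρ, hcard, hker, hfix⟩ := exists_lin (H := L) hp hV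
  have hN : (Nat.card A : K) ≠ 0 := by rwa [Ne, CharP.cast_eq_zero_iff K p]
  rw [hcard]
  obtain ⟨χ, hχ, -, h1⟩ := card_mul_finrank_le ρ hA hN pow_card_eq hcA (fun h => hcv ((hker c).1 h v)) S hS hSc
  refine Nat.pow_le_pow_right hp.pos (le_trans ?_ h1)
  exact Nat.le_mul_of_pos_right _ (Nat.pos_of_ne_zero fun h => hχ (Submodule.finrank_eq_zero.1 h))

end users

section cyc

variable {p : ℕ} (hp : p.Prime) {L V : Type*} [Group L] [Finite L] [AddCommGroup V] [Finite V]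
  [DistribMulAction L V] (hV : ∀ v : V, p • v = 0) {c : L} {ℓ : ℕ} (hℓ : ℓ.Prime) (hℓp : ℓ ≠ p) (hcℓ : c ^ ℓ = 1)
  {v : V} (hcv : c • v ≠ v) (T : Finset ℕ) (hT : ∀ k ∈ T, k < ℓ ∧ ∃ g : L, g * c * g⁻¹ = c ^ k)
include hp hV hℓ hℓp hcℓ hcv hT

/-- the common part of the cyclic cases -/
theorem cyc_aux : ∃ S : Finset L, S.card = T.card ∧ (∀ g ∈ S, ∃ k ∈ T, g * c * g⁻¹ = c ^ k) ∧
    ∀ g ∈ S, ∀ h ∈ S, g ≠ h → ∃ a ∈ Subgroup.zpowers c, (g * a * g⁻¹) * (h * a * h⁻¹)⁻¹ = c := by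
  classical
  choose! g hg using fun k hk => (hT k hk).2
  have hc1 : c ≠ 1 := fun h => hcv (by rw [h, one_smul])
  have hord : orderOf c = ℓ := by
    rcases (Nat.dvd_prime hℓ).1 (orderOf_dvd_of_pow_eq_one hcℓ) with h | h
    · exact absurd (orderOf_eq_one_iff.1 h) hc1
    · exact h
  have hginj : Set.InjOn g T := by
    intro k hk l hl h
    have h1 : c ^ k = c ^ l := by rw [← hg k hk, ← hg l hl, h]
    rw [pow_inj_mod, hord, Nat.mod_eq_of_lt (hT k hk).1, Nat.mod_eq_of_lt (hT l hl).1] at h1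
    exact h1
  refine ⟨T.image g, Finset.card_image_of_injOn hginj, ?_, ?_⟩
  · intro y hy
    obtain ⟨k, hk, rfl⟩ := Finset.mem_image.1 hy
    exact ⟨k, hk, hg k hk⟩
  · intro y hy y' hy' hne
    obtain ⟨k, hk, rfl⟩ := Finset.mem_image.1 hy
    obtain ⟨l, hl, rfl⟩ := Finset.mem_image.1 hy'
    have hkl : k ≠ l := fun h => hne (by rw [h])
    -- `a = c ^ j` with `(k - l) j = 1 mod ℓ`
    have hcop : IsCoprime ((k : ℤ) - l) ℓ := by
      rw [Int.isCoprime_iff_gcd_eq_one]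
      have h3 : ¬ (ℓ : ℤ) ∣ (k : ℤ) - l := by
        intro h
        have h4 := Int.eq_zero_of_abs_lt_dvd h (by
          rw [abs_lt]
          have := (hT k hk).1
          have := (hT l hl).1
          constructor <;> omega)
        apply hkl
        omega
      have h5 := (Nat.Prime.coprime_iff_not_dvd hℓ).2 (fun h => h3 (Int.natCast_dvd.2 h))
      rw [Int.gcd_eq_natAbs, Int.natAbs_natCast]
      exact h5.symm
    obtain ⟨j, t, hjt⟩ := hcop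
    refine ⟨c ^ j, ⟨j, rfl⟩, ?_⟩
    have e1 : g k * c ^ j * (g k)⁻¹ = c ^ ((k : ℤ) * j) := by
      rw [← conj_zpow, hg k hk, ← zpow_natCast, ← zpow_mul]
    have e2 : g l * c ^ j * (g l)⁻¹ = c ^ ((l : ℤ) * j) := by
      rw [← conj_zpow, hg l hl, ← zpow_natCast, ← zpow_mul]
    rw [e1, e2, ← zpow_neg, ← zpow_add]
    have e3 : (k : ℤ) * j + -((l : ℤ) * j) = 1 - t * ℓ := by linear_combination hjt
    rw [e3, zpow_sub, zpow_one, mul_comm t, zpow_mul, zpow_natCast, hcℓ, one_zpow, inv_one, mul_one]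

/-- **E4, cyclic case: the dimension.** -/
theorem at3_dim : p ^ T.card ≤ Nat.card V := by
  obtain ⟨S, hSc, hS1, hS2⟩ := cyc_aux hp hV hℓ hℓp hcℓ hcv T hT
  have hcomm : ∀ a ∈ Subgroup.zpowers c, ∀ b ∈ Subgroup.zpowers c, a * b = b * a := by
    rintro _ ⟨i, rfl⟩ _ ⟨j, rfl⟩
    exact zpow_mul_comm c i j
  have hcard : ¬ p ∣ Nat.card (Subgroup.zpowers c) := by
    rw [Nat.card_zpowers]
    intro h
    have := h.trans (orderOf_dvd_of_pow_eq_one hcℓ)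
    exact hℓp ((Nat.prime_dvd_prime_iff_eq hp hℓ).1 this).symm
  rw [← hSc]
  refine at2_dim hp hV (Subgroup.zpowers c) hcomm hcard (Subgroup.mem_zpowers c) hcv S ?_ hS2
  rintro g hg _ ⟨i, rfl⟩
  obtain ⟨k, -, hk⟩ := hS1 g hg
  exact ⟨(k : ℤ) * i, by
    change c ^ ((k : ℤ) * i) = g * c ^ i * g⁻¹
    rw [← conj_zpow, hk, ← zpow_natCast, ← zpow_mul]⟩

/-- **E4, cyclic case: the codimension of `C_V(x)`.** -/
theorem at3_codim {x : L} {j : ℕ} (hxc : x * c * x⁻¹ = c ^ j) (hj : c ^ j ≠ c) {s : ℕ} (hs : s.Prime) (hxs : x ^ s = 1)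
    {e : ℕ} (he : Nat.card V ≤ p ^ e * Nat.card {v : V // x • v = v}) : (s - 1) * T.card ≤ s * e := by
  obtain ⟨S, hSc, hS1, hS2⟩ := cyc_aux hp hV hℓ hℓp hcℓ hcv T hT
  have hc1 : c ≠ 1 := fun h => hcv (by rw [h, one_smul])
  have hord : orderOf c = ℓ := by
    rcases (Nat.dvd_prime hℓ).1 (orderOf_dvd_of_pow_eq_one hcℓ) with h | h
    · exact absurd (orderOf_eq_one_iff.1 h) hc1
    · exact h
  have hcomm : ∀ a ∈ Subgroup.zpowers c, ∀ b ∈ Subgroup.zpowers c, a * b = b * a := by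
    rintro _ ⟨i, rfl⟩ _ ⟨j, rfl⟩
    exact zpow_mul_comm c i j
  have hcard : ¬ p ∣ Nat.card (Subgroup.zpowers c) := by
    rw [Nat.card_zpowers]
    intro h
    have := h.trans (orderOf_dvd_of_pow_eq_one hcℓ)
    exact hℓp ((Nat.prime_dvd_prime_iff_eq hp hℓ).1 this).symm
  have hnorm : ∀ (g : L) (k : ℕ), g * c * g⁻¹ = c ^ k → ∀ a ∈ Subgroup.zpowers c, g * a * g⁻¹ ∈ Subgroup.zpowers c := by
    rintro g k hk _ ⟨i, rfl⟩
    exact ⟨(k : ℤ) * i, by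
      change c ^ ((k : ℤ) * i) = g * c ^ i * g⁻¹
      rw [← conj_zpow, hk, ← zpow_natCast, ← zpow_mul]⟩
  rw [← hSc]
  refine at2_codim hp hV (Subgroup.zpowers c) hcomm hcard (Subgroup.mem_zpowers c) hcv S ?_ hS2
    (hnorm x j hxc) ?_ hs hxs he
  · intro g hg
    obtain ⟨k, -, hk⟩ := hS1 g hg
    exact hnorm g k hk
  · intro g hg
    obtain ⟨k, hkT, hk⟩ := hS1 g hg
    -- `a = c ^ i` with `k (j - 1) i = 1 mod ℓ`
    have hℓ1 : ¬ (ℓ : ℤ) ∣ (k : ℤ) * ((j : ℤ) - 1) := by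
      intro h
      rcases Int.Prime.dvd_mul' hℓ h with h1 | h1
      · rw [Int.natCast_dvd_natCast, ← hord] at h1
        rw [orderOf_dvd_iff_pow_eq_one.1 h1] at hk
        apply hc1
        have : c = g⁻¹ * 1 * g := by rw [← hk]; group
        rw [this]; group
      · apply hj
        obtain ⟨t, ht⟩ := h1
        have h2 : c ^ ((j : ℤ) - 1) = 1 := by rw [ht, zpow_mul, zpow_natCast, hcℓ, one_zpow]
        rw [zpow_sub, zpow_one, zpow_natCast, mul_inv_eq_one] at h2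
        exact h2
    have hcop : IsCoprime ((k : ℤ) * ((j : ℤ) - 1)) ℓ := by
      rw [Int.isCoprime_iff_gcd_eq_one, Int.gcd_eq_natAbs, Int.natAbs_natCast]
      exact ((Nat.Prime.coprime_iff_not_dvd hℓ).2 (fun h => hℓ1 (Int.natCast_dvd.2 h))).symm
    obtain ⟨i, t, hit⟩ := hcop
    refine ⟨c ^ i, ⟨i, rfl⟩, ?_⟩
    have e1 : g * (x * c ^ i * x⁻¹) * g⁻¹ = c ^ ((k : ℤ) * j * i) := by
      rw [← conj_zpow, hxc, ← conj_zpow, ← conj_pow, hk, ← zpow_natCast, ← zpow_natCast, ← zpow_mul, ← zpow_mul,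
        mul_assoc]
    have e2 : g * c ^ i * g⁻¹ = c ^ ((k : ℤ) * i) := by
      rw [← conj_zpow, hk, ← zpow_natCast, ← zpow_mul]
    rw [e1, e2, ← zpow_neg, ← zpow_add]
    have e3 : (k : ℤ) * j * i + -((k : ℤ) * i) = 1 - t * ℓ := by linear_combination hit
    rw [e3, zpow_sub, zpow_one, mul_comm t, zpow_mul, zpow_natCast, hcℓ, one_zpow, inv_one, mul_one]

end cyc

end Cfsg.Agent.H887.RIM
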