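import Mathlib

/-!
# S4816 (RIM), EK tools: fixed spaces of an element permuting the summands of a direct sum (helper887)

`V = ⨁ W i` (finite), `g (W i) ≤ W (σ i)`, `σ ^ s = 1`, `s` prime.

* `fix_le` : `s dim C_V(g) + (s - 1) ∑_{σ i ≠ i} dim W i ≤ s dim V`;
* `orb_le` : the same for a group `X` permuting the summands: `dim C_V(X) + |I'| ≤ dim V + |orbits of X on I'|`,
  `I'` an invariant set of indices of nonzero summands.
-/

set_option autoImplicit false
set_option linter.unusedSectionVars false

namespace Cfsg.Agent.H887.RIM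

open Module

section perm

variable {K V : Type*} [Field K] [AddCommGroup V] [Module K V] {I : Type*} [Fintype I]
  [DecidableEq I] {W : I → Submodule K V}

/-- the components -/
noncomputable def cmp (hW : Function.Bijective (DirectSum.coeLinearMap W)) (i : I) : V →ₗ[K] V :=
  (W i).subtype ∘ₗ (DirectSum.component K I (fun i => W i) i) ∘ₗ
    ((LinearEquiv.ofBijective (DirectSum.coeLinearMap W) hW).symm : V →ₗ[K] DirectSum I fun i => W i)

variable (hW : Function.Bijective (DirectSum.coeLinearMap W))
include hW

theorem cmp_mem (i : I) (v : V) : cmp hW i v ∈ W i := Submodule.coe_mem _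

theorem cmp_of_mem {i : I} {v : V} (hv : v ∈ W i) (j : I) : cmp hW j v = if i = j then v else 0 := by
  have h1 : (LinearEquiv.ofBijective (DirectSum.coeLinearMap W) hW) (DirectSum.lof K I (fun i => W i) i ⟨v, hv⟩) = v :=
    DirectSum.coeLinearMap_lof W i ⟨v, hv⟩
  have h2 : (LinearEquiv.ofBijective (DirectSum.coeLinearMap W) hW).symm v =
      DirectSum.lof K I (fun i => W i) i ⟨v, hv⟩ := by
    rw [LinearEquiv.symm_apply_eq, h1]
  change ((DirectSum.component K I (fun i => W i) j)
      ((LinearEquiv.ofBijective (DirectSum.coeLinearMap W) hW).symm v) : V) = _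
  rw [h2]
  split_ifs with h
  · subst h
    rw [DirectSum.component.lof_self]
  · rw [DirectSum.component.of, dif_neg h]
    rfl

theorem iSup_eq : ⨆ i, W i = ⊤ := by
  rw [← DirectSum.range_coeLinearMap]
  exact LinearMap.range_eq_top.2 hW.2

theorem sum_cmp (v : V) : ∑ i, cmp hW i v = v := by
  have hv : v ∈ ⨆ i, W i := by rw [iSup_eq hW]; exact Submodule.mem_top
  induction hv using Submodule.iSup_induction' with
  | mem i x hx =>
    simp only [cmp_of_mem hW hx]
    rw [Finset.sum_ite_eq, if_pos (Finset.mem_univ _)]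
  | zero => simp
  | add x y _ _ hx hy =>
    simp only [map_add, Finset.sum_add_distrib]
    rw [hx, hy]

theorem ext_cmp {v w : V} (h : ∀ i, cmp hW i v = cmp hW i w) : v = w := by
  rw [← sum_cmp hW v, ← sum_cmp hW w]
  exact Finset.sum_congr rfl fun i _ => h i

variable {g : V →ₗ[K] V} {σ : Equiv.Perm I} (hg : ∀ i, ∀ w ∈ W i, g w ∈ W (σ i))
include hg

theorem cmp_g (i : I) (v : V) : cmp hW (σ i) (g v) = g (cmp hW i v) := by
  conv_lhs => rw [← sum_cmp hW v]
  rw [map_sum, map_sum, Finset.sum_eq_single i]
  · rw [cmp_of_mem hW (hg i _ (cmp_mem hW i v)), if_pos rfl]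
  · intro j _ hj
    rw [cmp_of_mem hW (hg j _ (cmp_mem hW j v)), if_neg]
    exact fun h => hj (σ.injective h)
  · intro h
    exact absurd (Finset.mem_univ _) h

theorem pow_mem (k : ℕ) {i : I} {w : V} (hw : w ∈ W i) : (g ^ k) w ∈ W ((σ ^ k) i) := by
  induction k with
  | zero => simpa using hw
  | succ k ih =>
    rw [pow_succ', pow_succ', Module.End.mul_apply, Equiv.Perm.mul_apply]
    exact hg _ _ ih

theorem cmp_fix {v : V} (hv : g v = v) (k : ℕ) (i : I) : cmp hW ((σ ^ k) i) v = (g ^ k) (cmp hW i v) := by
  induction k with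
  | zero => rfl
  | succ k ih =>
    rw [pow_succ', pow_succ', Module.End.mul_apply, Equiv.Perm.mul_apply, ← ih, ← cmp_g hW hg, hv]

omit [Fintype I] [DecidableEq I] hW hg in
/-- the powers `σ ^ k i`, `k < s`, of a moved point are distinct -/
theorem pow_inj {s : ℕ} (hs : s.Prime) (hσ : σ ^ s = 1) {i : I} (hi : σ i ≠ i) {a b : ℕ} (ha : a < s) (hb : b < s)
    (h : (σ ^ a) i = (σ ^ b) i) : a = b := by
  have hper : Function.IsPeriodicPt σ s i := by
    change σ^[s] i = i
    rw [Equiv.Perm.iterate_eq_pow, hσ]
    rfl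
  have h1 : Function.minimalPeriod σ i = s := by
    rcases (Nat.dvd_prime hs).1 hper.minimalPeriod_dvd with h1 | h1
    · exact absurd (Function.minimalPeriod_eq_one_iff_isFixedPt.1 h1) hi
    · exact h1
  refine Function.iterate_injOn_Iio_minimalPeriod (f := σ) (x := i) (by rw [h1]; exact ha) (by rw [h1]; exact hb) ?_
  rw [← Equiv.Perm.iterate_eq_pow, ← Equiv.Perm.iterate_eq_pow] at h
  exact h

variable [FiniteDimensional K V]

omit [DecidableEq I] hW in
theorem finrank_le_pow (hinj : Function.Injective g) (k : ℕ) (i : I) :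
    finrank K (W i) ≤ finrank K (W ((σ ^ k) i)) := by
  induction k with
  | zero => rfl
  | succ k ih =>
    refine ih.trans ?_
    rw [pow_succ', Equiv.Perm.mul_apply]
    have h1 : (W ((σ ^ k) i)).map g ≤ W (σ ((σ ^ k) i)) := by
      rintro _ ⟨w, hw, rfl⟩
      exact hg _ w hw
    exact (LinearEquiv.finrank_eq (Submodule.equivMapOfInjective g hinj _)).trans_le (Submodule.finrank_mono h1)

open scoped Classical in
theorem fix_le_reps : finrank K (LinearMap.ker (g - 1)) ≤
    ∑ q : Quotient (Equiv.Perm.SameCycle.setoid σ), finrank K (W q.out) := by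
  let Φ : LinearMap.ker (g - 1) →ₗ[K] ((q : Quotient (Equiv.Perm.SameCycle.setoid σ)) → W q.out) :=
    LinearMap.pi fun q => LinearMap.codRestrict (W q.out) (cmp hW q.out ∘ₗ (LinearMap.ker (g - 1)).subtype)
      fun v => cmp_mem hW _ _
  have hinj : Function.Injective Φ := by
    rw [← LinearMap.ker_eq_bot, LinearMap.ker_eq_bot']
    intro v hv
    have hv' : g v = v := by
      have := v.2
      rwa [LinearMap.mem_ker, LinearMap.sub_apply, Module.End.one_apply, sub_eq_zero] at this
    apply Subtype.ext
    apply ext_cmp hW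
    intro i
    change cmp hW i (v : V) = cmp hW i 0
    rw [map_zero]
    have h1 : (Equiv.Perm.SameCycle.setoid σ) (Quotient.out (Quotient.mk (Equiv.Perm.SameCycle.setoid σ) i)) i :=
      Quotient.mk_out (s := Equiv.Perm.SameCycle.setoid σ) i
    obtain ⟨k, hk⟩ := Equiv.Perm.SameCycle.exists_nat_pow_eq (h1 : σ.SameCycle _ _)
    rw [← hk, cmp_fix hW hg hv']
    have h2 := congrFun hv (Quotient.mk (Equiv.Perm.SameCycle.setoid σ) i)
    have h3 : cmp hW (Quotient.out (Quotient.mk (Equiv.Perm.SameCycle.setoid σ) i)) (v : V) = 0 :=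
      congrArg Subtype.val h2
    rw [h3, map_zero]
  have h1 := LinearMap.finrank_le_finrank_of_injective hinj
  rwa [Module.finrank_pi_fintype] at h1

/-- **The fixed space of an element permuting the summands.** -/
theorem fix_le (hinj : Function.Injective g) {s : ℕ} (hs : s.Prime) (hσ : σ ^ s = 1) :
    s * finrank K (LinearMap.ker (g - 1)) + (s - 1) * ∑ i with σ i ≠ i, finrank K (W i) ≤ s * finrank K V := by
  classical
  let S := Equiv.Perm.SameCycle.setoid σ
  have h0 : finrank K V = ∑ i, finrank K (W i) := by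
    rw [← (LinearEquiv.ofBijective (DirectSum.coeLinearMap W) hW).finrank_eq]
    exact Module.finrank_directSum K fun i => ↥(W i)
  have h1 := fix_le_reps hW hg
  -- the inequality in each cycle
  have key : ∀ q : Quotient S, s * finrank K (W q.out) + (s - 1) * ∑ i with (Quotient.mk S i = q ∧ σ i ≠ i),
      finrank K (W i) ≤ s * ∑ i with Quotient.mk S i = q, finrank K (W i) := by
    intro q
    have e1 : ∑ i with (Quotient.mk S i = q ∧ σ i ≠ i), finrank K (W i) + ∑ i with (Quotient.mk S i = q ∧ σ i = i),
        finrank K (W i) = ∑ i with Quotient.mk S i = q, finrank K (W i) := by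
      rw [← Finset.sum_filter_add_sum_filter_not (Finset.univ.filter fun i => Quotient.mk S i = q) (fun i => σ i ≠ i),
        Finset.filter_filter, Finset.filter_filter]
      simp only [not_not]
    have hout : Quotient.mk S q.out = q := Quotient.out_eq q
    have hsp := hs.one_lt
    by_cases hq : σ q.out = q.out
    · have e2 : finrank K (W q.out) ≤ ∑ i with (Quotient.mk S i = q ∧ σ i = i), finrank K (W i) :=
        Finset.single_le_sum (f := fun i => finrank K (W i)) (fun _ _ => Nat.zero_le _)
          (Finset.mem_filter.2 ⟨Finset.mem_univ _, hout, hq⟩)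
      rw [← e1, mul_add, add_comm]
      exact Nat.add_le_add (Nat.mul_le_mul_right _ (Nat.sub_le _ _)) (Nat.mul_le_mul_left _ e2)
    · have e2 : s * finrank K (W q.out) ≤ ∑ i with (Quotient.mk S i = q ∧ σ i ≠ i), finrank K (W i) := by
        have hsub : (Finset.range s).image (fun k => (σ ^ k) q.out) ⊆
            Finset.univ.filter fun i => Quotient.mk S i = q ∧ σ i ≠ i := by
          intro i hi
          obtain ⟨k, -, rfl⟩ := Finset.mem_image.1 hi
          refine Finset.mem_filter.2 ⟨Finset.mem_univ _, ?_, ?_⟩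
          · refine Eq.trans (Quotient.sound (s := S) ?_) hout
            have h5 : σ.SameCycle q.out ((σ ^ k) q.out) := ⟨(k : ℤ), by rw [zpow_natCast]⟩
            exact h5.symm
          · intro h
            apply hq
            have h2 : (σ ^ k) (σ q.out) = (σ ^ k) q.out := by
              rw [← Equiv.Perm.mul_apply, ← pow_succ, pow_succ', Equiv.Perm.mul_apply, h]
            exact (σ ^ k).injective h2
        refine le_trans ?_ (Finset.sum_le_sum_of_subset hsub)
        rw [Finset.sum_image]
        · calc s * finrank K (W q.out) = ∑ _k ∈ Finset.range s, finrank K (W q.out) := by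
                rw [Finset.sum_const, Finset.card_range, smul_eq_mul]
            _ ≤ _ := Finset.sum_le_sum fun k _ => finrank_le_pow hg hinj k _
        · intro a ha b hb h
          exact pow_inj hs hσ hq (Finset.mem_range.1 ha) (Finset.mem_range.1 hb) h
      have e3 : ∑ i with (Quotient.mk S i = q ∧ σ i ≠ i), finrank K (W i) ≤
          ∑ i with Quotient.mk S i = q, finrank K (W i) := by rw [← e1]; exact Nat.le_add_right _ _
      calc s * finrank K (W q.out) + (s - 1) * ∑ i with (Quotient.mk S i = q ∧ σ i ≠ i), finrank K (W i)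
          ≤ 1 * ∑ i with (Quotient.mk S i = q ∧ σ i ≠ i), finrank K (W i) +
            (s - 1) * ∑ i with (Quotient.mk S i = q ∧ σ i ≠ i), finrank K (W i) := by
              rw [one_mul]; exact Nat.add_le_add_right e2 _
        _ = s * ∑ i with (Quotient.mk S i = q ∧ σ i ≠ i), finrank K (W i) := by
              rw [← add_mul]; congr 1; omega
        _ ≤ _ := Nat.mul_le_mul_left _ e3
  have h2 : ∑ q : Quotient S, ∑ i with Quotient.mk S i = q, finrank K (W i) = ∑ i, finrank K (W i) :=
    Finset.sum_fiberwise _ _ _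
  have h3 : ∑ q : Quotient S, ∑ i with (Quotient.mk S i = q ∧ σ i ≠ i), finrank K (W i) =
      ∑ i with σ i ≠ i, finrank K (W i) := by
    rw [← Finset.sum_fiberwise (Finset.univ.filter fun i => σ i ≠ i) (Quotient.mk S)]
    refine Finset.sum_congr rfl fun q _ => ?_
    rw [Finset.filter_filter]
    refine Finset.sum_congr (Finset.filter_congr fun i _ => and_comm) fun _ _ => rfl
  calc s * finrank K (LinearMap.ker (g - 1)) + (s - 1) * ∑ i with σ i ≠ i, finrank K (W i)
      ≤ s * ∑ q : Quotient S, finrank K (W q.out) +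
        (s - 1) * ∑ q : Quotient S, ∑ i with (Quotient.mk S i = q ∧ σ i ≠ i), finrank K (W i) := by
          rw [h3]
          exact Nat.add_le_add_right (Nat.mul_le_mul_left _ h1) _
    _ = ∑ q : Quotient S, (s * finrank K (W q.out) +
        (s - 1) * ∑ i with (Quotient.mk S i = q ∧ σ i ≠ i), finrank K (W i)) := by
          rw [Finset.sum_add_distrib, Finset.mul_sum, Finset.mul_sum]
    _ ≤ ∑ q : Quotient S, s * ∑ i with Quotient.mk S i = q, finrank K (W i) := Finset.sum_le_sum fun q _ => key q
    _ = s * finrank K V := by rw [← Finset.mul_sum, h2, h0]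

end perm

section orb

variable {K V : Type*} [Field K] [AddCommGroup V] [Module K V] {I : Type*} [Fintype I]
  [DecidableEq I] {W : I → Submodule K V} {X : Type*} [Group X] [MulAction X I]

/-- the fixed vectors of a group -/
def fixs (ρ : X →* Module.End K V) : Submodule K V := ⨅ g : X, LinearMap.ker (ρ g - 1)

theorem mem_fixs {ρ : X →* Module.End K V} {v : V} : v ∈ fixs ρ ↔ ∀ g, ρ g v = v := by
  simp [fixs, Submodule.mem_iInf, sub_eq_zero]

variable (hW : Function.Bijective (DirectSum.coeLinearMap W)) (ρ : X →* Module.End K V)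
  (hg : ∀ g : X, ∀ i, ∀ w ∈ W i, ρ g w ∈ W (g • i))
include hW hg

theorem cmp_smul (g : X) (i : I) (v : V) : cmp hW (g • i) (ρ g v) = ρ g (cmp hW i v) :=
  cmp_g hW (σ := MulAction.toPerm g) (hg g) i v

variable [FiniteDimensional K V]

omit [DecidableEq I] hW in
theorem finrank_smul (g : X) (i : I) : finrank K (W (g • i)) = finrank K (W i) := by
  have h : ∀ (g : X) (i : I), finrank K (W i) ≤ finrank K (W (g • i)) := by
    intro g i
    have hinj : Function.Injective (ρ g) := by
      intro v w h
      have h1 : ρ g⁻¹ (ρ g v) = ρ g⁻¹ (ρ g w) := by rw [h]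
      rwa [← Module.End.mul_apply, ← Module.End.mul_apply, ← map_mul, inv_mul_cancel, map_one,
        Module.End.one_apply, Module.End.one_apply] at h1
    have h1 : (W i).map (ρ g) ≤ W (g • i) := by
      rintro _ ⟨w, hw, rfl⟩
      exact hg g _ w hw
    exact (LinearEquiv.finrank_eq (Submodule.equivMapOfInjective (ρ g) hinj _)).trans_le (Submodule.finrank_mono h1)
  refine le_antisymm ?_ (h g i)
  have := h g⁻¹ (g • i)
  rwa [inv_smul_smul] at this

open scoped Classical in
theorem fixs_le : finrank K (fixs ρ) ≤ ∑ q : MulAction.orbitRel.Quotient X I, finrank K (W q.out) := by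
  let Φ : fixs ρ →ₗ[K] ((q : MulAction.orbitRel.Quotient X I) → W q.out) :=
    LinearMap.pi fun q => LinearMap.codRestrict (W q.out) (cmp hW q.out ∘ₗ (fixs ρ).subtype)
      fun v => cmp_mem hW _ _
  have hinj : Function.Injective Φ := by
    rw [← LinearMap.ker_eq_bot, LinearMap.ker_eq_bot']
    intro v hv
    have hv' : ∀ g, ρ g v = v := mem_fixs.1 v.2
    apply Subtype.ext
    apply ext_cmp hW
    intro i
    change cmp hW i (v : V) = cmp hW i 0
    rw [map_zero]
    have h1 : (MulAction.orbitRel X I) i (Quotient.out (Quotient.mk (MulAction.orbitRel X I) i)) :=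
      (MulAction.orbitRel X I).symm (Quotient.mk_out (s := MulAction.orbitRel X I) i)
    obtain ⟨g, hgi⟩ := h1
    have h2 := congrFun hv (Quotient.mk (MulAction.orbitRel X I) i)
    have h3 : cmp hW (Quotient.out (Quotient.mk (MulAction.orbitRel X I) i)) (v : V) = 0 :=
      congrArg Subtype.val h2
    have h4 := cmp_smul hW ρ hg g (Quotient.out (Quotient.mk (MulAction.orbitRel X I) i)) (v : V)
    rw [hv', h3, map_zero] at h4
    change g • (Quotient.out (Quotient.mk (MulAction.orbitRel X I) i)) = i at hgi
    rwa [hgi] at h4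
  have h1 := LinearMap.finrank_le_finrank_of_injective hinj
  rwa [Module.finrank_pi_fintype] at h1

/-- **The fixed space of a group permuting the summands.** -/
theorem orb_le (T : Set I) (hT : ∀ i ∈ T, W i ≠ ⊥) (hTX : ∀ g : X, ∀ i ∈ T, g • i ∈ T) :
    finrank K (fixs ρ) + Nat.card T ≤ finrank K V + Nat.card {q : MulAction.orbitRel.Quotient X I // q.out ∈ T} := by
  classical
  let S := MulAction.orbitRel X I
  have h0 : finrank K V = ∑ i, finrank K (W i) := by
    rw [← (LinearEquiv.ofBijective (DirectSum.coeLinearMap W) hW).finrank_eq]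
    exact Module.finrank_directSum K fun i => ↥(W i)
  have h1 := fixs_le hW ρ hg
  have key : ∀ q : Quotient S, finrank K (W q.out) + ∑ i with Quotient.mk S i = q, (if i ∈ T then 1 else 0) ≤
      ∑ i with Quotient.mk S i = q, finrank K (W i) + (if q.out ∈ T then 1 else 0) := by
    intro q
    have hout : Quotient.mk S q.out = q := Quotient.out_eq q
    have hrel : ∀ i, Quotient.mk S i = q → ∃ g : X, g • q.out = i := by
      intro i hi
      have h2 : S i q.out := Quotient.exact (hi.trans hout.symm)
      exact h2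
    have hfr : ∀ i, Quotient.mk S i = q → finrank K (W i) = finrank K (W q.out) := by
      intro i hi
      obtain ⟨g, rfl⟩ := hrel i hi
      exact finrank_smul ρ hg g _
    have hmT : ∀ i, Quotient.mk S i = q → (i ∈ T ↔ q.out ∈ T) := by
      intro i hi
      obtain ⟨g, rfl⟩ := hrel i hi
      constructor
      · intro h
        have := hTX g⁻¹ _ h
        rwa [inv_smul_smul] at this
      · exact hTX g _
    have e1 : ∑ i with Quotient.mk S i = q, finrank K (W i) =
        (Finset.univ.filter fun i => Quotient.mk S i = q).card * finrank K (W q.out) := by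
      rw [Finset.sum_congr rfl fun i hi => hfr i (Finset.mem_filter.1 hi).2, Finset.sum_const, smul_eq_mul]
    have e2 : ∑ i with Quotient.mk S i = q, (if i ∈ T then 1 else 0) =
        (Finset.univ.filter fun i => Quotient.mk S i = q).card * (if q.out ∈ T then 1 else 0) := by
      rw [Finset.sum_congr rfl (g := fun _ => if q.out ∈ T then 1 else 0), Finset.sum_const, smul_eq_mul]
      intro i hi
      simp only [hmT i (Finset.mem_filter.1 hi).2]
    have hpos : 1 ≤ (Finset.univ.filter fun i => Quotient.mk S i = q).card :=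
      Finset.card_pos.2 ⟨q.out, Finset.mem_filter.2 ⟨Finset.mem_univ _, hout⟩⟩
    rw [e1, e2]
    generalize (Finset.univ.filter fun i => Quotient.mk S i = q).card = c at hpos
    obtain ⟨c, rfl⟩ := Nat.exists_eq_add_of_le' hpos
    by_cases hq : q.out ∈ T
    · rw [if_pos hq]
      have h3 : 1 ≤ finrank K (W q.out) := by
        rw [Nat.one_le_iff_ne_zero, Ne, Submodule.finrank_eq_zero]
        exact hT _ hq
      nlinarith
    · rw [if_neg hq]
      nlinarith [Nat.zero_le (c * finrank K (W q.out))]
  have h2 : ∑ q : Quotient S, ∑ i with Quotient.mk S i = q, finrank K (W i) = ∑ i, finrank K (W i) :=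
    Finset.sum_fiberwise _ _ _
  have h3 : ∑ q : Quotient S, ∑ i with Quotient.mk S i = q, (if i ∈ T then 1 else 0) =
      ∑ i, (if i ∈ T then 1 else 0) := Finset.sum_fiberwise _ _ _
  have h4 : Nat.card T = ∑ i, (if i ∈ T then 1 else 0) := by
    rw [Finset.sum_ite, Finset.sum_const_zero, add_zero, Finset.sum_const, smul_eq_mul, mul_one,
      ← Fintype.card_subtype, Nat.card_eq_fintype_card]
  have h5 : Nat.card {q : MulAction.orbitRel.Quotient X I // q.out ∈ T} =
      ∑ q : Quotient S, (if q.out ∈ T then 1 else 0) := by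
    rw [Finset.sum_ite, Finset.sum_const_zero, add_zero, Finset.sum_const, smul_eq_mul, mul_one,
      ← Fintype.card_subtype, Nat.card_eq_fintype_card]
  rw [h4, h5, ← h3, h0, ← h2, ← Finset.sum_add_distrib]
  refine (Nat.add_le_add_right h1 _).trans ?_
  change ∑ q : Quotient S, finrank K (W q.out) + _ ≤ _
  rw [← Finset.sum_add_distrib]
  exact Finset.sum_le_sum fun q _ => key q

end orb

end Cfsg.Agent.H887.RIM
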