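import Cfsg.Agent.H912.Bd1
import Cfsg.Agent.H887.RIM.Lin
import Cfsg.Agent.H887.RIM.Perm

/-!
# S4816 (RIM), EK tool E4: weights of an abelian `p'`-subgroup `A` and the fixed space of an element of `N(A)` (helper887)

`wc ρ A χ`, `χ : A →* Kˣ` : the weight spaces; `at0` : `s dim C_W(x) + (s - 1) |T| ≤ s dim W`, `T` a set of weights moved by
`x`, `x ^ s = 1`, `s` prime.
-/

set_option autoImplicit false
set_option linter.style.haveILetI false
set_option linter.unusedSectionVars false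

namespace Cfsg.Agent.H887.RIM

open Module Cfsg.Agent.H912.Bd

section char

theorem char_nz {K : Type*} [Field K] [IsAlgClosed K] {B : Type*} [Group B] [Finite B]
    (hN : (Nat.card B : K) ≠ 0) : HasEnoughRootsOfUnity K (Monoid.exponent B) := by
  haveI : NeZero ((Monoid.exponent B : ℕ) : K) := ⟨by
    intro h
    apply hN
    obtain ⟨c, hc⟩ := Group.exponent_dvd_nat_card (G := B)
    rw [hc, Nat.cast_mul, h, zero_mul]⟩
  infer_instance

theorem card_char {K : Type*} [Field K] [IsAlgClosed K] {B : Type*} [Group B] [Finite B]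
    (hB : ∀ a b : B, a * b = b * a) (hN : (Nat.card B : K) ≠ 0) : Nat.card (B →* Kˣ) = Nat.card B := by
  letI : CommGroup B := { ‹Group B› with mul_comm := hB }
  haveI := char_nz (K := K) (B := B) hN
  exact CommGroup.card_monoidHom_of_hasEnoughRootsOfUnity B K

/-- the number of characters fixed by an endomorphism is the number of its fixed elements -/
theorem card_char_fix {K : Type*} [Field K] [IsAlgClosed K] {B : Type*} [Group B] [Finite B]
    (hB : ∀ a b : B, a * b = b * a) (hN : (Nat.card B : K) ≠ 0) (θ : B →* B) :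
    Nat.card {χ : B →* Kˣ // χ.comp θ = χ} = Nat.card {b : B // θ b = b} := by
  letI : CommGroup B := { ‹Group B› with mul_comm := hB }
  haveI := char_nz (K := K) (B := B) hN
  let φ : B →* B :=
    { toFun := fun b => θ b * b⁻¹
      map_one' := by rw [map_one, inv_one, mul_one]
      map_mul' := by
        intro a b
        rw [map_mul, mul_inv]
        exact mul_mul_mul_comm _ _ _ _ }
  have h1 := CommGroup.card_domRestrictHom_ker K φ.range
  have h2 : Nat.card {χ : B →* Kˣ // χ.comp θ = χ} = Nat.card (MonoidHom.domRestrictHom φ.range Kˣ).ker := by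
    refine Nat.card_congr (Equiv.subtypeEquivRight fun χ => ?_)
    rw [MonoidHom.mem_ker]
    constructor
    · intro h
      ext ⟨_, b, rfl⟩
      have h3 : χ (θ b) = χ b := DFunLike.congr_fun h b
      change ((χ (θ b * b⁻¹) : Kˣ) : K) = ((1 : Kˣ) : K)
      rw [map_mul, h3, map_inv, mul_inv_cancel]
    · intro h
      ext b
      have h3 : χ (θ b * b⁻¹) = 1 := DFunLike.congr_fun h ⟨_, b, rfl⟩
      rw [map_mul, map_inv, mul_inv_eq_one] at h3
      rw [MonoidHom.comp_apply, h3]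
  have h3 : Nat.card φ.ker = Nat.card {b : B // θ b = b} := by
    refine Nat.card_congr (Equiv.subtypeEquivRight fun b => ?_)
    rw [MonoidHom.mem_ker]
    change θ b * b⁻¹ = 1 ↔ _
    rw [mul_inv_eq_one]
  have h4 : Nat.card φ.ker * Nat.card φ.range = Nat.card B := by
    rw [← Subgroup.index_ker, mul_comm, Subgroup.index_mul_card]
  have h5 : Nat.card (B ⧸ φ.range) * Nat.card φ.range = Nat.card B :=
    (Subgroup.card_eq_card_quotient_mul_card_subgroup _).symm
  rw [h2, h1, ← h3]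
  exact Nat.eq_of_mul_eq_mul_right Nat.card_pos (h5.trans h4.symm)

end char

section wts

variable {K : Type*} [Field K] {W : Type*} [AddCommGroup W] [Module K W] {L : Type*} [Group L]
  (ρ : L →* Module.End K W) {A : Subgroup L}

/-- the weight space of a character -/
def wc (ρ : L →* Module.End K W) (A : Subgroup L) (χ : A →* Kˣ) : Submodule K W := wt ρ A (fun a => (χ a : K))

theorem mem_wc {ρ : L →* Module.End K W} {χ : A →* Kˣ} {w : W} : w ∈ wc ρ A χ ↔ ∀ a : A, ρ a w = (χ a : K) • w :=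
  mem_wt

/-- conjugation -/
def cjA {x : L} (hx : ∀ a ∈ A, x * a * x⁻¹ ∈ A) : A →* A where
  toFun a := ⟨x * a * x⁻¹, hx a a.2⟩
  map_one' := by ext; simp
  map_mul' a b := by ext; simp [mul_assoc]

theorem cjA_coe {x : L} (hx : ∀ a ∈ A, x * a * x⁻¹ ∈ A) (a : A) : ((cjA hx a : A) : L) = x * a * x⁻¹ := rfl

/-- the action of a subgroup normalising `A` on the characters of `A` -/
@[reducible] def cact (K : Type*) [Field K] {X : Subgroup L} (hX : ∀ x ∈ X, ∀ a ∈ A, x * a * x⁻¹ ∈ A) :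
    MulAction X (A →* Kˣ) where
  smul x χ := χ.comp (cjA (hX (x⁻¹ : X) (x⁻¹).2))
  one_smul χ := by
    ext a
    change ((χ (cjA _ a) : Kˣ) : K) = χ a
    congr 2
    ext
    simp [cjA_coe]
  mul_smul x y χ := by
    ext a
    change ((χ (cjA _ a) : Kˣ) : K) = χ (cjA _ (cjA _ a))
    congr 2
    ext
    simp [cjA_coe, mul_assoc]

/-- `ρ x` maps `wc χ` into `wc (χ ∘ (a ↦ x⁻¹ a x))`. -/
theorem map_wc {x : L} (hx : ∀ a ∈ A, x⁻¹ * a * x⁻¹⁻¹ ∈ A) {χ : A →* Kˣ} {w : W} (hw : w ∈ wc ρ A χ) :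
    ρ x w ∈ wc ρ A (χ.comp (cjA hx)) := by
  rw [mem_wc] at hw ⊢
  intro a
  have h1 := hw (cjA hx a)
  have h2 : ρ (a : L) (ρ x w) = ρ x (ρ ((cjA hx a : A) : L) w) := by
    rw [← Module.End.mul_apply, ← Module.End.mul_apply, ← map_mul, ← map_mul, cjA_coe]
    congr 2
    group
  rw [h2, h1, map_smul]
  rfl

variable [FiniteDimensional K W] [IsAlgClosed K] [Finite A] (hA : ∀ a ∈ A, ∀ b ∈ A, a * b = b * a)
  (hN : (Nat.card A : K) ≠ 0)
include hA hN

omit hA hN [Finite A] [FiniteDimensional K W] [IsAlgClosed K] in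
theorem pow_card_eq (a : L) (ha : a ∈ A) : a ^ Nat.card A = 1 := by
  have h : (⟨a, ha⟩ : A) ^ Nat.card A = 1 := pow_card_eq_one'
  exact congrArg Subtype.val h

open scoped Classical in
theorem wc_bij : Function.Bijective (DirectSum.coeLinearMap (wc ρ A)) := by
  have h1 : iSupIndep (wc ρ A) := (indep_wt ρ hA hN pow_card_eq).comp (f := fun (χ : A →* Kˣ) (a : A) => (χ a : K)) (by
    intro χ ψ h
    ext a
    exact congrFun h a)
  have h2 : ⨆ χ, wc ρ A χ = ⊤ := by
    rw [eq_top_iff, ← iSup_wt ρ hA hN pow_card_eq]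
    refine iSup_le fun χ => ?_
    by_cases hχ : wt ρ A χ = ⊥
    · rw [hχ]; exact bot_le
    · let χ' : A →* K := { toFun := χ, map_one' := wt_one ρ hχ, map_mul' := wt_mul ρ hχ }
      have h3 : wc ρ A χ'.toHomUnits = wt ρ A χ := rfl
      rw [← h3]
      exact le_iSup (wc ρ A) _
  constructor
  · exact h1.dfinsupp_lsum_injective
  · rw [← LinearMap.range_eq_top, DirectSum.range_coeLinearMap]
    exact h2

omit [FiniteDimensional K W] [IsAlgClosed K] hA hN in
theorem norm_zpowers {x : L} (hx : ∀ a ∈ A, x * a * x⁻¹ ∈ A) : ∀ y ∈ Subgroup.zpowers x, ∀ a ∈ A, y * a * y⁻¹ ∈ A := by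
  have h1 : x ∈ Subgroup.normalizer (A : Set L) := by
    haveI : Finite (A : Set L) := inferInstanceAs (Finite A)
    exact Subgroup.mem_normalizer_fintype hx
  intro y hy a ha
  have h2 : y ∈ Subgroup.normalizer (A : Set L) := (Subgroup.zpowers_le.2 h1) hy
  exact (Subgroup.mem_normalizer_iff.1 h2 a).1 ha

omit [FiniteDimensional K W] [IsAlgClosed K] hA hN in
theorem rho_inj' (x : L) : Function.Injective (ρ x) := rho_injective ρ x

/-- **E4, linear version.** -/
theorem at0 {x : L} (hx : ∀ a ∈ A, x * a * x⁻¹ ∈ A) {s : ℕ} (hs : s.Prime) (hxs : x ^ s = 1)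
    (T : Finset (A →* Kˣ)) (hT : ∀ χ ∈ T, wc ρ A χ ≠ ⊥ ∧ χ.comp (cjA hx) ≠ χ) :
    s * finrank K (LinearMap.ker (ρ x - 1)) + (s - 1) * T.card ≤ s * finrank K W := by
  classical
  haveI : Fintype (A →* Kˣ) := Fintype.ofFinite _
  have hX := norm_zpowers hx
  letI := cact K hX
  let x' : Subgroup.zpowers x := ⟨x, Subgroup.mem_zpowers x⟩
  let σ : Equiv.Perm (A →* Kˣ) := MulAction.toPerm x'
  have hx's : x' ^ s = 1 := Subtype.ext hxs
  have hσ : σ ^ s = 1 := by
    have h : MulAction.toPermHom (Subgroup.zpowers x) (A →* Kˣ) x' ^ s = 1 := by rw [← map_pow, hx's, map_one]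
    exact h
  have hg : ∀ χ, ∀ w ∈ wc ρ A χ, ρ x w ∈ wc ρ A (σ χ) := by
    intro χ w hw
    exact map_wc ρ (hX _ ((x'⁻¹ : Subgroup.zpowers x)).2) hw
  have h1 := fix_le (wc_bij ρ hA hN) hg (rho_injective ρ x) hs hσ
  refine le_trans (Nat.add_le_add_left (Nat.mul_le_mul_left _ ?_) _) h1
  calc T.card = ∑ _χ ∈ T, 1 := by rw [Finset.sum_const, smul_eq_mul, mul_one]
    _ ≤ ∑ χ ∈ T, finrank K (wc ρ A χ) := Finset.sum_le_sum fun χ hχ => by
        rw [Nat.one_le_iff_ne_zero, Ne, Submodule.finrank_eq_zero]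
        exact (hT χ hχ).1
    _ ≤ _ := Finset.sum_le_sum_of_subset fun χ hχ => by
        refine Finset.mem_filter.2 ⟨Finset.mem_univ _, fun h => (hT χ hχ).2 ?_⟩
        have h2 : x'⁻¹ • χ = χ := by
          rw [inv_smul_eq_iff]
          exact h.symm
        have h3 : x'⁻¹ • χ = χ.comp (cjA hx) := by
          ext a
          change ((χ (cjA _ a) : Kˣ) : K) = χ (cjA _ a)
          congr 2
          ext
          simp [cjA_coe, x']
        rw [← h3, h2]

omit [Finite A] in
/-- the subgroup acts trivially on the weight space of the trivial character only -/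
theorem finrank_le_of_wc (T : Finset (A →* Kˣ)) (hT : ∀ χ ∈ T, wc ρ A χ ≠ ⊥) : T.card ≤ finrank K W := by
  classical
  have h1 : iSupIndep (wc ρ A) := (indep_wt ρ hA hN pow_card_eq).comp (f := fun (χ : A →* Kˣ) (a : A) => (χ a : K)) (by
    intro χ ψ h
    ext a
    exact congrFun h a)
  have h2 : iSupIndep (fun χ : T => wc ρ A (χ : A →* Kˣ)) := h1.comp Subtype.val_injective
  refine le_trans ?_ (sum_finrank_le h2)
  calc T.card = ∑ _χ : T, 1 := by rw [Finset.sum_const, Finset.card_univ, Fintype.card_coe, smul_eq_mul, mul_one]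
    _ ≤ _ := Finset.sum_le_sum fun χ _ => by
        rw [Nat.one_le_iff_ne_zero, Ne, Submodule.finrank_eq_zero]
        exact hT χ χ.2

/-- an element of `A` not acting trivially has a weight on it -/
theorem exists_wc {c : A} (hc : ρ c ≠ 1) : ∃ χ : A →* Kˣ, wc ρ A χ ≠ ⊥ ∧ χ c ≠ 1 := by
  obtain ⟨χ, hχ, hc⟩ := exists_wt ρ hA hN pow_card_eq (c := c) hc
  let χ' : A →* K := { toFun := χ, map_one' := wt_one ρ hχ, map_mul' := wt_mul ρ hχ }
  refine ⟨χ'.toHomUnits, hχ, fun h => hc ?_⟩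
  have h2 : ((χ'.toHomUnits c : Kˣ) : K) = 1 := by rw [h]; rfl
  exact h2

omit [FiniteDimensional K W] [IsAlgClosed K] hA hN [Finite A] in
/-- twists of weights are weights -/
theorem wc_twist {g : L} (hg : ∀ a ∈ A, g * a * g⁻¹ ∈ A) {χ : A →* Kˣ} (hχ : wc ρ A χ ≠ ⊥) :
    wc ρ A (χ.comp (cjA hg)) ≠ ⊥ := by
  obtain ⟨w, hw, hw0⟩ := Submodule.exists_mem_ne_zero_of_ne_bot hχ
  rw [Submodule.ne_bot_iff]
  refine ⟨ρ g⁻¹ w, ?_, ?_⟩
  · rw [mem_wc] at hw ⊢
    intro a
    have h1 := hw (cjA hg a)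
    have h2 : ρ (a : L) (ρ g⁻¹ w) = ρ g⁻¹ (ρ ((cjA hg a : A) : L) w) := by
      rw [← Module.End.mul_apply, ← Module.End.mul_apply, ← map_mul, ← map_mul, cjA_coe]
      congr 2
      group
    rw [h2, h1, map_smul]
    rfl
  · intro h
    apply hw0
    have h1 : ρ g (ρ g⁻¹ w) = w := by
      rw [← Module.End.mul_apply, ← map_mul, mul_inv_cancel, map_one]; rfl
    rw [← h1, h, map_zero]

end wts

end Cfsg.Agent.H887.RIM
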