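import Cfsg.Agent.H912.Bd1
import Cfsg.Agent.H887.RIM.Lin

/-!
# S4816 (RIM), EK tool E7: extraspecial subgroups (helper887)

`R ≤ L`, `z ∈ R` central in `R`, `z ^ r = 1` (`r` prime, `r ≠ p`), all commutators of `R` powers of `z`, `z` not trivial on
the elementary abelian `p`-group `V`:
* `extra_le` : `m ^ 2 ≤ |R : Z(R)|` gives `p ^ m ≤ |V|`;
* `extra_le_conj` : if `z` is conjugate in `L` to the powers `z ^ k`, `k ∈ T`, then even `p ^ (|T| m) |C_V(z)| ≤ |V|`.
-/

set_option autoImplicit false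
set_option linter.style.haveILetI false
set_option linter.unusedSectionVars false

namespace Cfsg.Agent.H887.RIM

open Module

theorem pow_mod_eq {K : Type*} [Field K] {ζ : K} {r : ℕ} (hr : 0 < r) (hord : orderOf ζ = r) {a b : ℕ}
    (h : ζ ^ a = ζ ^ b) : a % r = b % r := by
  have hp : IsPrimitiveRoot ζ r := by rw [← hord]; exact IsPrimitiveRoot.orderOf ζ
  refine hp.pow_inj (Nat.mod_lt _ hr) (Nat.mod_lt _ hr) ?_
  rw [← hord, pow_mod_orderOf, pow_mod_orderOf, h]

section lin

variable {K : Type*} [Field K] {W : Type*} [AddCommGroup W] [Module K W] {R : Type*} [Group R]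

theorem rho_ne_zero [Nontrivial W] (ρ : R →* Module.End K W) (r : R) : ρ r ≠ 0 := by
  intro h
  have h1 : ρ (r * r⁻¹) = 0 := by rw [map_mul, h, zero_mul]
  rw [mul_inv_cancel, map_one] at h1
  exact one_ne_zero h1

/-- group elements with different commutator characters act linearly independently -/
theorem linInd [Nontrivial W] [FiniteDimensional K W] (ρ : R →* Module.End K W) (sc : R → R → K)
    (hsc : ∀ s r, ρ (s * r * s⁻¹) = sc s r • ρ r) {I : Type*} [Finite I] (f : I → R)
    (hf : ∀ i j, (∀ s, sc s (f i) = sc s (f j)) → i = j) : LinearIndependent K (fun i => ρ (f i)) := by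
  cases nonempty_fintype I
  have hu : ∀ (a b : K) (r : R), a • ρ r = b • ρ r → a = b := by
    intro a b r h
    have h1 : (a - b) • ρ r = 0 := by rw [sub_smul, h, sub_self]
    exact sub_eq_zero.1 ((smul_eq_zero.1 h1).resolve_right (rho_ne_zero ρ r))
  let χ : I → (R →* K) := fun i =>
    { toFun := fun s => sc s (f i)
      map_one' := by
        apply hu _ _ (f i)
        rw [← hsc, one_smul]
        congr 1
        group
      map_mul' := by
        intro s t
        apply hu _ _ (f i)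
        rw [← hsc]
        have e : s * t * f i * (s * t)⁻¹ = s * (t * f i * t⁻¹) * s⁻¹ := by group
        rw [e, map_mul, map_mul, hsc t, mul_smul_comm, smul_mul_assoc, ← map_mul, ← map_mul, hsc, smul_smul]
        congr 1
        ring }
  have hχ : Function.Injective χ := by
    intro i j h
    apply hf
    intro s
    exact DFunLike.congr_fun h s
  rw [Fintype.linearIndependent_iff]
  intro c hc i
  by_contra hci
  obtain ⟨φ, hφ⟩ : ∃ φ : Module.Dual K (Module.End K W), φ (ρ (f i)) ≠ 0 := by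
    by_contra hcon
    push Not at hcon
    exact rho_ne_zero ρ (f i) ((Module.forall_dual_apply_eq_zero_iff K _).1 hcon)
  have hs : ∀ s, ∑ i, (c i * φ (ρ (f i))) * sc s (f i) = 0 := by
    intro s
    have h1 : ρ s * (∑ i, c i • ρ (f i)) * ρ s⁻¹ = 0 := by rw [hc, mul_zero, zero_mul]
    rw [Finset.mul_sum, Finset.sum_mul] at h1
    have h2 : ∑ i, c i • sc s (f i) • ρ (f i) = 0 := by
      rw [← h1]
      refine Finset.sum_congr rfl fun i _ => ?_
      rw [← hsc, map_mul, map_mul, mul_smul_comm, smul_mul_assoc]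
    have h3 := congrArg φ h2
    rw [map_sum, map_zero] at h3
    rw [← h3]
    refine Finset.sum_congr rfl fun i _ => ?_
    rw [map_smul, map_smul, smul_eq_mul, smul_eq_mul]
    ring
  have hd := (linearIndependent_monoidHom R K).comp χ hχ
  rw [Fintype.linearIndependent_iff] at hd
  have h5 := hd (fun i => c i * φ (ρ (f i))) (by
    funext s
    have h6 := hs s
    simpa [χ] using h6) i
  rcases mul_eq_zero.1 h5 with h6 | h6
  · exact hci h6
  · exact hφ h6

end lin

section eig

variable {K : Type*} [Field K] {W : Type*} [AddCommGroup W] [Module K W] [FiniteDimensional K W] {L : Type*} [Group L]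
  [Finite L] (ρ : L →* Module.End K W) (R : Subgroup L) {z : L} (hzR : z ∈ R) {r : ℕ} (hr : r.Prime) (hzr : z ^ r = 1)
  (hzc : ∀ x ∈ R, z * x = x * z) (hcomm : ∀ x ∈ R, ∀ y ∈ R, ∃ k : ℕ, x * y * x⁻¹ * y⁻¹ = z ^ k)
include hr hzr hzc hcomm

omit [Finite L] in
theorem zeta_pow {ζ : K} (hE : (ρ z).eigenspace ζ ≠ ⊥) : ζ ^ r = 1 := by
  obtain ⟨v, hv, hv0⟩ := Submodule.exists_mem_ne_zero_of_ne_bot hE
  rw [Module.End.mem_eigenspace_iff] at hv
  have h1 : ∀ k : ℕ, ρ (z ^ k) v = ζ ^ k • v := by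
    intro k
    induction k with
    | zero => rw [pow_zero, pow_zero, map_one, one_smul]; rfl
    | succ k ih => rw [pow_succ, map_mul, Module.End.mul_apply, hv, map_smul, ih, smul_smul, pow_succ, mul_comm]
  have h2 := h1 r
  rw [hzr, map_one, Module.End.one_apply] at h2
  have h3 : (ζ ^ r - 1) • v = 0 := by rw [sub_smul, ← h2, one_smul, sub_self]
  exact sub_eq_zero.1 ((smul_eq_zero.1 h3).resolve_right hv0)

/-- the bound in an eigenspace of `z` -/
theorem index_le {ζ : K} (hζ : ζ ≠ 1) (hE : (ρ z).eigenspace ζ ≠ ⊥) :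
    (Subgroup.center R).index ≤ finrank K ((ρ z).eigenspace ζ) ^ 2 := by
  classical
  have hζr : ζ ^ r = 1 := zeta_pow ρ R hr hzr hzc hcomm hE
  have hord : orderOf ζ = r := by
    rcases (Nat.dvd_prime hr).1 (orderOf_dvd_of_pow_eq_one hζr) with h | h
    · exact absurd (orderOf_eq_one_iff.1 h) hζ
    · exact h
  set E := (ρ z).eigenspace ζ with hEdef
  haveI : Nontrivial E := Submodule.nontrivial_iff_ne_bot.2 hE
  have hinv : ∀ x ∈ R, ∀ v ∈ E, ρ x v ∈ E := by
    intro x hx v hv
    rw [hEdef, Module.End.mem_eigenspace_iff] at hv ⊢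
    rw [← Module.End.mul_apply, ← map_mul, hzc x hx, map_mul, Module.End.mul_apply, hv, map_smul]
  let ρE : R →* Module.End K E :=
    { toFun := fun x => (ρ (x : L)).restrict (hinv x x.2)
      map_one' := by
        apply LinearMap.ext
        intro v
        apply Subtype.ext
        change ρ (1 : L) (v : W) = v
        rw [map_one]; rfl
      map_mul' := by
        intro x y
        apply LinearMap.ext
        intro v
        apply Subtype.ext
        change ρ ((x : L) * (y : L)) (v : W) = ρ (x : L) (ρ (y : L) (v : W))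
        rw [map_mul]; rfl }
  have hρE : ∀ (x : R) (v : E), ((ρE x v : E) : W) = ρ (x : L) (v : W) := fun x v => rfl
  have hzk : ∀ (k : ℕ) (v : W), v ∈ E → ρ (z ^ k) v = ζ ^ k • v := by
    intro k v hv
    rw [hEdef, Module.End.mem_eigenspace_iff] at hv
    induction k with
    | zero => rw [pow_zero, pow_zero, map_one, one_smul]; rfl
    | succ k ih => rw [pow_succ, map_mul, Module.End.mul_apply, hv, map_smul, ih, smul_smul, pow_succ, mul_comm]
  choose! k hk using hcomm
  have hsc : ∀ s x : R, ρE (s * x * s⁻¹) = (ζ ^ k (s : L) (x : L)) • ρE x := by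
    intro s x
    apply LinearMap.ext
    intro v
    apply Subtype.ext
    rw [hρE]
    have h1 : ((s * x * s⁻¹ : R) : L) = z ^ k (s : L) (x : L) * (x : L) := by
      rw [← hk s s.2 x x.2]
      push_cast
      group
    rw [h1, map_mul, Module.End.mul_apply, hzk _ _ (hinv x x.2 v v.2)]
    rfl
  have hf : ∀ i j : R ⧸ Subgroup.center R, (∀ s : R, ζ ^ k (s : L) ((Quotient.out i : R) : L) =
      ζ ^ k (s : L) ((Quotient.out j : R) : L)) → i = j := by
    intro i j h
    rw [← QuotientGroup.out_eq' i, ← QuotientGroup.out_eq' j, QuotientGroup.eq, Subgroup.mem_center_iff]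
    intro s
    have h1 := h s⁻¹
    have h2 : z ^ k ((s⁻¹ : R) : L) ((Quotient.out i : R) : L) = z ^ k ((s⁻¹ : R) : L) ((Quotient.out j : R) : L) := by
      have h1 := pow_mod_eq hr.pos hord h1
      rw [← Nat.mod_add_div (k ((s⁻¹ : R) : L) ((Quotient.out i : R) : L)) r,
        ← Nat.mod_add_div (k ((s⁻¹ : R) : L) ((Quotient.out j : R) : L)) r, pow_add, pow_add, pow_mul, pow_mul, hzr,
        one_pow, one_pow, h1]
    rw [← hk _ (s⁻¹).2 _ (Quotient.out i).2, ← hk _ (s⁻¹).2 _ (Quotient.out j).2] at h2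
    apply Subtype.ext
    generalize ((Quotient.out i : R)) = a at h2 ⊢
    generalize ((Quotient.out j : R)) = b at h2 ⊢
    push_cast at h2 ⊢
    rw [inv_inv] at h2
    -- h2 : s⁻¹ a s a⁻¹ = s⁻¹ b s b⁻¹
    have h3 : (a : L) * s * (a : L)⁻¹ = b * s * (b : L)⁻¹ := by
      have := congrArg (fun t => (s : L) * t) h2
      simpa [mul_assoc] using this
    calc (s : L) * ((a : L)⁻¹ * b) = (a : L)⁻¹ * (a * s * (a : L)⁻¹) * b := by group
      _ = (a : L)⁻¹ * (b * s * (b : L)⁻¹) * b := by rw [h3]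
      _ = (a : L)⁻¹ * b * s := by group
  have hli := linInd ρE (fun s x => ζ ^ k (s : L) (x : L)) hsc (fun i : R ⧸ Subgroup.center R => Quotient.out i) hf
  haveI : Fintype (R ⧸ Subgroup.center R) := Fintype.ofFinite _
  have h1 := hli.fintype_card_le_finrank
  rw [Module.finrank_linearMap, ← Nat.card_eq_fintype_card] at h1
  rw [Subgroup.index, sq]
  exact h1

end eig

/-- **E7, with conjugates of `z`.** -/
theorem extra_le_conj {p : ℕ} (hp : p.Prime) {L V : Type*} [Group L] [Finite L] [AddCommGroup V] [Finite V]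
    [DistribMulAction L V] (hV : ∀ v : V, p • v = 0) (R : Subgroup L) {z : L} {r : ℕ} (hr : r.Prime)
    (hrp : r ≠ p) (hzr : z ^ r = 1) (hzc : ∀ x ∈ R, z * x = x * z)
    (hcomm : ∀ x ∈ R, ∀ y ∈ R, ∃ k : ℕ, x * y * x⁻¹ * y⁻¹ = z ^ k) {v : V} (hv : z • v ≠ v) {m : ℕ}
    (hm : m ^ 2 ≤ (Subgroup.center R).index) (T : Finset ℕ) (hT : ∀ k ∈ T, k < r ∧ ∃ g : L, g * z * g⁻¹ = z ^ k) :
    p ^ (T.card * m) * Nat.card {v : V // z • v = v} ≤ Nat.card V := by
  classical
  obtain ⟨K, _, _, _, W, _, _, _, ρ, hcard, hker, hfix⟩ := exists_lin (H := L) hp hV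
  have hρz : ρ z ≠ 1 := fun h => hv ((hker z).1 h v)
  have hrK : (r : K) ≠ 0 := by
    intro h
    rw [CharP.cast_eq_zero_iff K p] at h
    exact hrp ((Nat.prime_dvd_prime_iff_eq hp hr).1 h).symm
  have hρr : ρ z ^ r = 1 := by rw [← map_pow, hzr, map_one]
  have hρr1 : ρ z ^ r = 1 := hρr
  obtain ⟨ζ, hζ, hE⟩ : ∃ ζ : K, ζ ≠ 1 ∧ (ρ z).eigenspace ζ ≠ ⊥ := by
    by_contra hcon
    push Not at hcon
    apply hρz
    have h1 : (⊤ : Submodule K W) ≤ (ρ z).eigenspace 1 := by
      rw [← Module.End.iSup_maxGenEigenspace_eq_top (ρ z)]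
      refine iSup_le fun μ => ?_
      rw [H912.Bd.maxGen_eq hrK hρr]
      by_cases hμ : μ = 1
      · rw [hμ]
      · rw [hcon μ hμ]; exact bot_le
    apply LinearMap.ext
    intro w
    have h2 := h1 (Submodule.mem_top (x := w))
    rw [Module.End.mem_eigenspace_iff, one_smul] at h2
    rw [h2]; rfl
  have hζr : ζ ^ r = 1 := zeta_pow ρ R hr hzr hzc hcomm hE
  have hord : orderOf ζ = r := by
    rcases (Nat.dvd_prime hr).1 (orderOf_dvd_of_pow_eq_one hζr) with h | h
    · exact absurd (orderOf_eq_one_iff.1 h) hζ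
    · exact h
  have hz1 : z ≠ 1 := fun h => hρz (by rw [h, map_one])
  have hEk : ∀ k ∈ T, (ρ z).eigenspace (ζ ^ k) ≠ ⊥ := by
    intro k hk
    obtain ⟨-, g, hg⟩ := hT k hk
    obtain ⟨w, hw, hw0⟩ := Submodule.exists_mem_ne_zero_of_ne_bot hE
    rw [Module.End.mem_eigenspace_iff] at hw
    have hzk : ∀ j : ℕ, ρ (z ^ j) w = ζ ^ j • w := by
      intro j
      induction j with
      | zero => rw [pow_zero, pow_zero, map_one, one_smul]; rfl
      | succ j ih => rw [pow_succ, map_mul, Module.End.mul_apply, hw, map_smul, ih, smul_smul, pow_succ, mul_comm]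
    rw [Submodule.ne_bot_iff]
    refine ⟨ρ g⁻¹ w, ?_, ?_⟩
    · rw [Module.End.mem_eigenspace_iff, ← Module.End.mul_apply, ← map_mul]
      have e : z * g⁻¹ = g⁻¹ * z ^ k := by rw [← hg]; group
      rw [e, map_mul, Module.End.mul_apply, hzk, map_smul]
    · intro h0
      apply hw0
      have h1 : ρ g (ρ g⁻¹ w) = w := by
        rw [← Module.End.mul_apply, ← map_mul, mul_inv_cancel, map_one]; rfl
      rw [← h1, h0, map_zero]
  have hk1 : ∀ k ∈ T, ζ ^ k ≠ 1 := by
    intro k hk h
    obtain ⟨hkr, g, hg⟩ := hT k hk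
    have h1 := orderOf_dvd_of_pow_eq_one h
    rw [hord] at h1
    rcases Nat.eq_zero_or_pos k with h2 | h2
    · rw [h2, pow_zero] at hg
      apply hz1
      have : z = g⁻¹ * 1 * g := by rw [← hg]; group
      rw [this]; group
    · exact absurd (Nat.le_of_dvd h2 h1) (not_le.2 hkr)
  have hdk : ∀ k ∈ T, m ≤ finrank K ((ρ z).eigenspace (ζ ^ k)) := by
    intro k hk
    have h1 := index_le ρ R hr hzr hzc hcomm (hk1 k hk) (hEk k hk)
    exact (Nat.pow_le_pow_iff_left two_ne_zero).1 (hm.trans h1)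
  -- the sum of the eigenspaces
  let ν : Option T → K := fun o => o.elim 1 fun k => ζ ^ (k : ℕ)
  have hν : Function.Injective ν := by
    intro a b hab
    cases a with
    | none =>
      cases b with
      | none => rfl
      | some b => exact absurd hab.symm (hk1 b b.2)
    | some a =>
      cases b with
      | none => exact absurd hab (hk1 a a.2)
      | some b =>
        have h1 : ζ ^ (a : ℕ) = ζ ^ (b : ℕ) := hab
        have h2 := pow_mod_eq hr.pos hord h1
        rw [Nat.mod_eq_of_lt (hT a a.2).1, Nat.mod_eq_of_lt (hT b b.2).1] at h2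
        exact congrArg some (Subtype.ext h2)
  have hind : iSupIndep (fun o : Option T => (ρ z).eigenspace (ν o)) :=
    (Module.End.eigenspaces_iSupIndep (ρ z)).comp hν
  have hsum := H912.Bd.sum_finrank_le hind
  rw [Fintype.sum_option] at hsum
  have h1 : T.card * m ≤ ∑ k : T, finrank K ((ρ z).eigenspace (ν (some k))) := by
    calc T.card * m = ∑ _k : T, m := by rw [Finset.sum_const, Finset.card_univ, Fintype.card_coe, smul_eq_mul]
      _ ≤ _ := Finset.sum_le_sum fun k _ => hdk k k.2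
  have h2 : finrank K ((ρ z).eigenspace (ν none)) = finrank K (LinearMap.ker (ρ z - 1)) := by
    have e : (ρ z).eigenspace (ν none) = LinearMap.ker (ρ z - 1) := by
      change (ρ z).eigenspace (1 : K) = _
      ext w
      rw [Module.End.mem_eigenspace_iff, one_smul, LinearMap.mem_ker, LinearMap.sub_apply, Module.End.one_apply,
        sub_eq_zero]
    rw [e]
  rw [hcard, hfix, ← pow_add]
  refine Nat.pow_le_pow_right hp.pos ?_
  rw [h2] at hsum
  omega

/-- **E7.** -/
theorem extra_le {p : ℕ} (hp : p.Prime) {L V : Type*} [Group L] [Finite L] [AddCommGroup V] [Finite V]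
    [DistribMulAction L V] (hV : ∀ v : V, p • v = 0) (R : Subgroup L) {z : L} {r : ℕ} (hr : r.Prime)
    (hrp : r ≠ p) (hzr : z ^ r = 1) (hzc : ∀ x ∈ R, z * x = x * z)
    (hcomm : ∀ x ∈ R, ∀ y ∈ R, ∃ k : ℕ, x * y * x⁻¹ * y⁻¹ = z ^ k) {v : V} (hv : z • v ≠ v) {m : ℕ}
    (hm : m ^ 2 ≤ (Subgroup.center R).index) : p ^ m ≤ Nat.card V := by
  have h1 := extra_le_conj hp hV R hr hrp hzr hzc hcomm hv hm {1} (by
    intro k hk
    rw [Finset.mem_singleton.1 hk]
    exact ⟨hr.one_lt, 1, by group⟩)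
  rw [Finset.card_singleton, one_mul] at h1
  exact (Nat.le_mul_of_pos_right _ (Nat.card_pos_iff.2 ⟨⟨⟨0, smul_zero z⟩⟩, inferInstance⟩)).trans h1

end Cfsg.Agent.H887.RIM
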